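import Mathlib

/-!
# Pushing up along paths for a core-free maximal subgroup

`H` is a core-free maximal subgroup of a finite group `G`, `t ∉ H`, and `|H : H ∩ H^t| ≤ d`.
If `E` is a normal subgroup of `H` inside the normal subgroup `S` of `G`, the centralizer of `E` in
`H ∩ S` has index at most `b` in `H ∩ S`, and every subgroup of `E` of index at most `d * b` contains
a nontrivial normal subgroup of `H`, we get a contradiction.
-/

set_option autoImplicit false
set_option linter.unusedSectionVars false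
open scoped Pointwise

namespace Cfsg.Agent.H717.Push

universe u

variable {G : Type u} [Group G] [Finite G]

/-- `H` normalises `N`. -/
def Inv (H N : Subgroup G) : Prop := ∀ h ∈ H, MulAut.conj h • N = N

theorem conj_smul_mem {g x : G} {N : Subgroup G} : x ∈ MulAut.conj g • N ↔ g⁻¹ * x * g ∈ N := by
  rw [Subgroup.mem_pointwise_smul_iff_inv_smul_mem, ← map_inv]
  simp [MulAut.smul_def]

theorem conj_smul_smul (g h : G) (N : Subgroup G) :
    MulAut.conj g • MulAut.conj h • N = MulAut.conj (g * h) • N := by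
  rw [map_mul, mul_smul]

theorem relIndex_conj (g : G) (A B : Subgroup G) :
    (MulAut.conj g • A).relIndex (MulAut.conj g • B) = A.relIndex B :=
  Subgroup.relIndex_pointwise_smul _ _ _

theorem card_conj (g : G) (A : Subgroup G) : Nat.card ↥(MulAut.conj g • A) = Nat.card A :=
  (Nat.card_congr (Subgroup.equivSMul (MulAut.conj g) A).toEquiv).symm

theorem relIndex_pos (A B : Subgroup G) : 0 < A.relIndex B := by
  rw [Subgroup.relIndex]
  exact Nat.pos_of_ne_zero Subgroup.index_ne_zero_of_finite

theorem relIndex_mono {A B C : Subgroup G} (h : B ≤ C) : A.relIndex B ≤ A.relIndex C :=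
  Subgroup.relIndex_le_of_le_right h (relIndex_pos A C).ne'

theorem relIndex_mul_card (A B : Subgroup G) : A.relIndex B * Nat.card ↥(A ⊓ B) = Nat.card B := by
  have h := Subgroup.card_mul_index (A.subgroupOf B)
  rw [Subgroup.relIndex, mul_comm]
  rw [← h]
  congr 1
  rw [← Subgroup.subgroupOf_map_subtype]
  exact (Nat.card_congr ((A.subgroupOf B).equivMapOfInjective B.subtype B.subtype_injective).toEquiv).symm

theorem relIndex_symm {A B : Subgroup G} (h : Nat.card A = Nat.card B) : A.relIndex B = B.relIndex A := by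
  have h1 := relIndex_mul_card A B
  have h2 := relIndex_mul_card B A
  rw [inf_comm B A] at h2
  have h3 : 0 < Nat.card ↥(A ⊓ B) := Nat.card_pos
  exact Nat.eq_of_mul_eq_mul_right h3 (by rw [h1, h2, h])

theorem centralizer_conj (g : G) (E : Subgroup G) :
    Subgroup.centralizer ((MulAut.conj g • E : Subgroup G) : Set G) =
      MulAut.conj g • Subgroup.centralizer (E : Set G) := by
  ext x
  rw [conj_smul_mem, Subgroup.mem_centralizer_iff, Subgroup.mem_centralizer_iff]
  constructor
  · intro h y hy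
    have h1 := h (g * y * g⁻¹) (by
      change g * y * g⁻¹ ∈ MulAut.conj g • E
      rw [conj_smul_mem]
      have : g⁻¹ * (g * y * g⁻¹) * g = y := by group
      rw [this]
      exact hy)
    calc y * (g⁻¹ * x * g) = g⁻¹ * ((g * y * g⁻¹) * x) * g := by group
      _ = g⁻¹ * (x * (g * y * g⁻¹)) * g := by rw [h1]
      _ = g⁻¹ * x * g * y := by group
  · intro h y hy
    have hy' : g⁻¹ * y * g ∈ E := conj_smul_mem.1 hy
    have h1 := h _ hy'
    calc y * x = g * ((g⁻¹ * y * g) * (g⁻¹ * x * g)) * g⁻¹ := by group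
      _ = g * ((g⁻¹ * x * g) * (g⁻¹ * y * g)) * g⁻¹ := by rw [h1]
      _ = x * y := by group

theorem conj_normal (g : G) (S : Subgroup G) [hS : S.Normal] : MulAut.conj g • S = S := by
  ext x
  rw [conj_smul_mem]
  constructor
  · intro h
    have := hS.conj_mem _ h g
    have e : g * (g⁻¹ * x * g) * g⁻¹ = x := by group
    rwa [e] at this
  · intro h
    have := hS.conj_mem _ h g⁻¹
    rwa [inv_inv] at this

/-- A nontrivial normal subgroup of a core-free maximal subgroup `H` has `H` as its normalizer. -/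
theorem mem_of_conj_eq {H N : Subgroup G} (hmax : IsCoatom H) (hcore : H.normalCore = ⊥) (hNH : N ≤ H)
    (hN : N ≠ ⊥) (hinv : Inv H N) {x : G} (hx : MulAut.conj x • N = N) : x ∈ H := by
  by_contra hxH
  have hle : H ≤ Subgroup.normalizer (N : Set G) := by
    intro h hh
    rw [Subgroup.mem_normalizer_iff]
    intro y
    have h1 := hinv h hh
    constructor
    · intro hy
      have : h * y * h⁻¹ ∈ MulAut.conj h • N := by
        rw [conj_smul_mem]
        have e : h⁻¹ * (h * y * h⁻¹) * h = y := by group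
        rwa [e]
      rwa [h1] at this
    · intro hy
      rw [← h1, conj_smul_mem] at hy
      have e : h⁻¹ * (h * y * h⁻¹) * h = y := by group
      rwa [e] at hy
  have hxn : x ∈ Subgroup.normalizer (N : Set G) := by
    rw [Subgroup.mem_normalizer_iff]
    intro y
    constructor
    · intro hy
      have : x * y * x⁻¹ ∈ MulAut.conj x • N := by
        rw [conj_smul_mem]
        have e : x⁻¹ * (x * y * x⁻¹) * x = y := by group
        rwa [e]
      rwa [hx] at this
    · intro hy
      rw [← hx, conj_smul_mem] at hy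
      have e : x⁻¹ * (x * y * x⁻¹) * x = y := by group
      rwa [e] at hy
  have htop : Subgroup.normalizer (N : Set G) = ⊤ := by
    refine hmax.2 _ (lt_of_le_of_ne hle ?_)
    rintro h
    exact hxH (h ▸ hxn)
  have : N.Normal := Subgroup.normalizer_eq_top_iff.1 htop
  have : N ≤ H.normalCore := Subgroup.normal_le_normalCore.2 hNH
  rw [hcore] at this
  exact hN (le_bot_iff.1 this)

theorem conj_eq_of_commute {N : Subgroup G} {x : G} (h : ∀ n ∈ N, n * x = x * n) : MulAut.conj x • N = N := by
  ext y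
  rw [conj_smul_mem]
  constructor
  · intro hy
    have h1 := h _ hy
    have : y = x⁻¹ * y * x := by
      calc y = x * (x⁻¹ * y * x) * x⁻¹ := by group
        _ = (x⁻¹ * y * x) * x * x⁻¹ := by rw [← h1]
        _ = x⁻¹ * y * x := by group
    rw [this]
    exact hy
  · intro hy
    have h1 := h y hy
    have : x⁻¹ * y * x = y := by rw [mul_assoc, h1]; group
    rw [this]
    exact hy

/-- The main pushing-up theorem. -/
theorem push {H : Subgroup G} (hmax : IsCoatom H) (hcore : H.normalCore = ⊥) {t : G} (ht : t ∉ H) {d : ℕ}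
    (hd : (MulAut.conj t • H).relIndex H ≤ d) (S : Subgroup G) [S.Normal] {E : Subgroup G} (hEH : E ≤ H)
    (hES : E ≤ S) {b : ℕ} (hb : (Subgroup.centralizer (E : Set G)).relIndex (H ⊓ S) ≤ b)
    (rich : ∀ F : Subgroup G, F ≤ E → F.relIndex E ≤ d * b → ∃ N : Subgroup G, N ≤ F ∧ N ≠ ⊥ ∧ Inv H N) : False := by
  have hd0 : 1 ≤ d := (relIndex_pos (MulAut.conj t • H) H).trans_le hd
  have hb0 : 1 ≤ b := (relIndex_pos (Subgroup.centralizer (E : Set G)) (H ⊓ S)).trans_le hb
  -- transported richness
  have key : ∀ (g : G) (F W : Subgroup G), F ≤ MulAut.conj g • E → F.relIndex (MulAut.conj g • E) ≤ d * b →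
      (∀ w ∈ W, ∀ f ∈ F, f * w = w * f) → W ≤ MulAut.conj g • H := by
    intro g F W hF hFi hW w hw
    obtain ⟨N, hNF, hN, hNi⟩ := rich (MulAut.conj g⁻¹ • F) (by
      intro x hx
      rw [conj_smul_mem, inv_inv] at hx
      have := conj_smul_mem.1 (hF hx)
      have e : g⁻¹ * (g * x * g⁻¹) * g = x := by group
      rwa [e] at this) (by
      rw [← relIndex_conj g, conj_smul_smul, mul_inv_cancel, map_one, one_smul]
      exact hFi)
    rw [conj_smul_mem]
    refine mem_of_conj_eq hmax hcore (hNF.trans (fun x hx => ?_)) hN hNi (conj_eq_of_commute fun n hn => ?_)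
    · rw [conj_smul_mem, inv_inv] at hx
      have h1 := conj_smul_mem.1 (hF hx)
      have e : g⁻¹ * (g * x * g⁻¹) * g = x := by group
      rw [e] at h1
      exact hEH h1
    · have h1 := hNF hn
      rw [conj_smul_mem, inv_inv] at h1
      have h2 := hW w hw _ h1
      calc n * (g⁻¹ * w * g) = g⁻¹ * ((g * n * g⁻¹) * w) * g := by group
        _ = g⁻¹ * (w * (g * n * g⁻¹)) * g := by rw [h2]
        _ = g⁻¹ * w * g * n := by group
  -- centralizer index transported
  have hcen : ∀ g : G, (Subgroup.centralizer ((MulAut.conj g • E : Subgroup G) : Set G)).relIndex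
      (MulAut.conj g • H ⊓ S) ≤ b := by
    intro g
    have h1 : MulAut.conj g • H ⊓ S = MulAut.conj g • (H ⊓ S) := by
      rw [Subgroup.smul_inf, conj_normal g S]
    rw [h1, centralizer_conj, relIndex_conj]
    exact hb
  have hESg : ∀ g : G, MulAut.conj g • E ≤ S := by
    intro g
    calc MulAut.conj g • E ≤ MulAut.conj g • S := Subgroup.pointwise_smul_le_pointwise_smul_iff.2 hES
      _ = S := conj_normal g S
  have step : ∀ u : G, (MulAut.conj u • H).relIndex H ≤ d → ∀ g : G, MulAut.conj g • E ≤ H →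
      MulAut.conj g • E ≤ MulAut.conj u • H := by
    intro u hu g hg
    have h1 : MulAut.conj u • E ≤ MulAut.conj g • H := by
      refine key g (Subgroup.centralizer ((MulAut.conj u • E : Subgroup G) : Set G) ⊓ MulAut.conj u • H ⊓
        MulAut.conj g • E) _ inf_le_right ?_ ?_
      · rw [Subgroup.inf_relIndex_right, ← Subgroup.relIndex_inf_mul_relIndex, mul_comm]
        refine Nat.mul_le_mul ((relIndex_mono hg).trans hu) ?_
        refine (relIndex_mono ?_).trans (hcen u)
        exact inf_le_inf le_rfl (hESg g)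
      · rintro w hw f hf
        have hf1 := Subgroup.mem_centralizer_iff.1 (Subgroup.mem_inf.1 (Subgroup.mem_inf.1 hf).1).1
        exact (hf1 w hw).symm
    refine key u (Subgroup.centralizer ((MulAut.conj g • E : Subgroup G) : Set G) ⊓ MulAut.conj u • E) _
      inf_le_right ?_ ?_
    · rw [Subgroup.inf_relIndex_right]
      refine (relIndex_mono (le_inf h1 (hESg u))).trans ((hcen g).trans ?_)
      exact Nat.le_mul_of_pos_left b hd0
    · rintro w hw f hf
      have hf1 := Subgroup.mem_centralizer_iff.1 (Subgroup.mem_inf.1 hf).1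
      exact (hf1 w hw).symm
  -- closure argument
  let M : Subgroup G :=
    { carrier := {u | (∀ g : G, MulAut.conj g • E ≤ H → MulAut.conj (u * g) • E ≤ H) ∧
        (∀ g : G, MulAut.conj g • E ≤ H → MulAut.conj (u⁻¹ * g) • E ≤ H)}
      mul_mem' := by
        rintro u v ⟨hu1, hu2⟩ ⟨hv1, hv2⟩
        refine ⟨fun g hg => ?_, fun g hg => ?_⟩
        · rw [mul_assoc]
          exact hu1 _ (hv1 _ hg)
        · rw [mul_inv_rev, mul_assoc]
          exact hv2 _ (hu2 _ hg)
      one_mem' := by
        refine ⟨fun g hg => ?_, fun g hg => ?_⟩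
        · rwa [one_mul]
        · rwa [inv_one, one_mul]
      inv_mem' := by
        rintro u ⟨hu1, hu2⟩
        refine ⟨hu2, fun g hg => ?_⟩
        rw [inv_inv]
        exact hu1 g hg }
  have hHM : H ≤ M := by
    have aux : ∀ h ∈ H, ∀ g : G, MulAut.conj g • E ≤ H → MulAut.conj (h * g) • E ≤ H := by
      intro h hh g hg
      rw [← conj_smul_smul]
      intro x hx
      have h1 := hg (conj_smul_mem.1 hx)
      have h2 := H.mul_mem (H.mul_mem hh h1) (H.inv_mem hh)
      have e : h * (h⁻¹ * x * h) * h⁻¹ = x := by group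
      rwa [e] at h2
    intro h hh
    exact ⟨aux h hh, aux _ (H.inv_mem hh)⟩
  have htM : t ∈ M := by
    have aux : ∀ u : G, (MulAut.conj u • H).relIndex H ≤ d → ∀ g : G, MulAut.conj g • E ≤ H →
        MulAut.conj (u⁻¹ * g) • E ≤ H := by
      intro u hu g hg
      have h1 := step u hu g hg
      rw [← conj_smul_smul]
      intro x hx
      have h2 := conj_smul_mem.1 (h1 (conj_smul_mem.1 hx))
      rw [inv_inv] at h2
      have e : u⁻¹ * (u * x * u⁻¹) * u = x := by group
      rwa [e] at h2
    refine ⟨?_, aux t hd⟩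
    intro g hg
    have h1 := aux t⁻¹ (by
      rw [← relIndex_conj t, conj_smul_smul, mul_inv_cancel, map_one, one_smul,
        relIndex_symm (card_conj t H).symm]
      exact hd) g hg
    rwa [inv_inv] at h1
  have hMtop : M = ⊤ := by
    refine hmax.2 _ (lt_of_le_of_ne hHM ?_)
    rintro h
    exact ht (h ▸ htM)
  have hall : ∀ g : G, MulAut.conj g • E ≤ H := by
    intro g
    have h1 : g ∈ M := by rw [hMtop]; trivial
    have h2 := h1.1 1 (by rw [map_one, one_smul]; exact hEH)
    rwa [mul_one] at h2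
  have hEbot : E = ⊥ := by
    rw [eq_bot_iff, ← hcore]
    intro x hx
    change ∀ g : G, g * x * g⁻¹ ∈ H
    intro g
    refine hall g ?_
    rw [conj_smul_mem]
    have e : g⁻¹ * (g * x * g⁻¹) * g = x := by group
    rwa [e]
  obtain ⟨N, hN1, hN2, _⟩ := rich E le_rfl (by
    rw [Subgroup.relIndex_self]
    exact Nat.mul_pos hd0 hb0)
  rw [hEbot] at hN1
  exact hN2 (le_bot_iff.1 hN1)

/-- Elements of the centralizer of `E` normalise every subgroup of `E`. -/
theorem conj_eq_of_mem_centralizer {E F : Subgroup G} (hF : F ≤ E) {x : G}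
    (hx : x ∈ Subgroup.centralizer (E : Set G)) : MulAut.conj x • F = F :=
  conj_eq_of_commute fun n hn => Subgroup.mem_centralizer_iff.1 hx n (hF hn)

/-- **Lemma B.** An abelian normal subgroup `E` of the point stabilizer `H` with `|H : C_H(E)| ≤ b` has
order at most `(d * b) ^ b`. -/
theorem card_le {H : Subgroup G} (hmax : IsCoatom H) (hcore : H.normalCore = ⊥) {t : G} (ht : t ∉ H) {d : ℕ}
    (hd : (MulAut.conj t • H).relIndex H ≤ d) {E : Subgroup G} (hEH : E ≤ H) (hinv : Inv H E)
    {b : ℕ} (hb : (Subgroup.centralizer (E : Set G)).relIndex H ≤ b) :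
    Nat.card E ≤ (d * b) ^ b := by
  by_contra hlt
  push Not at hlt
  have hd0 : 1 ≤ d := (relIndex_pos (MulAut.conj t • H) H).trans_le hd
  have hb0 : 1 ≤ b := (relIndex_pos (Subgroup.centralizer (E : Set G)) H).trans_le hb
  refine push hmax hcore ht hd ⊤ hEH le_top (b := b) (by rwa [inf_top_eq]) ?_
  intro F hFE hFi
  -- representatives
  let C := (Subgroup.centralizer (E : Set G)).subgroupOf H
  let Q := H ⧸ C
  have : Finite Q := inferInstance
  let _ : Fintype Q := Fintype.ofFinite Q
  have hQ : Fintype.card Q ≤ b := by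
    rw [← Nat.card_eq_fintype_card]
    exact hb
  let r : Q → G := fun q => ((Quotient.out q : H) : G)
  have hr : ∀ h : H, ∃ q : Q, ∃ c ∈ Subgroup.centralizer (E : Set G), (h : G) = r q * c := by
    intro h
    refine ⟨(h : Q), ((Quotient.out (h : Q) : H) : G)⁻¹ * h, ?_, ?_⟩
    · have h1 : (Quotient.out (h : Q) : H)⁻¹ * h ∈ C := QuotientGroup.eq.1 (Quotient.out_eq (h : Q))
      exact h1
    · simp only [r]
      group
  let N : Subgroup G := (⨅ q : Q, MulAut.conj (r q) • F) ⊓ E
  have hNle : N.relIndex E ≤ (d * b) ^ b := by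
    rw [Subgroup.inf_relIndex_right]
    refine le_trans (Subgroup.relIndex_iInf_le (fun q : Q => MulAut.conj (r q) • F)) ?_
    calc ∏ q : Q, (MulAut.conj (r q) • F).relIndex E ≤ ∏ _q : Q, (d * b) := by
          refine Finset.prod_le_prod' fun q _ => ?_
          have h1 : E = MulAut.conj (r q) • E := (hinv _ (Quotient.out q : H).2).symm
          conv_lhs => rw [h1]
          rw [relIndex_conj]
          exact hFi
      _ = (d * b) ^ Fintype.card Q := by rw [Finset.prod_const, Finset.card_univ]
      _ ≤ (d * b) ^ b := Nat.pow_le_pow_right (Nat.mul_pos hd0 hb0) hQ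
  have hconj : ∀ h ∈ H, ∃ q : Q, MulAut.conj h • F = MulAut.conj (r q) • F := by
    intro h hh
    obtain ⟨q, c, hc, he⟩ := hr ⟨h, hh⟩
    refine ⟨q, ?_⟩
    change h = r q * c at he
    rw [he, ← conj_smul_smul, conj_eq_of_mem_centralizer hFE hc]
  have hN1 : ∀ x : G, x ∈ N ↔ (∀ h ∈ H, x ∈ MulAut.conj h • F) ∧ x ∈ E := by
    intro x
    rw [Subgroup.mem_inf, Subgroup.mem_iInf]
    constructor
    · rintro ⟨h1, h2⟩
      refine ⟨fun h hh => ?_, h2⟩
      obtain ⟨q, hq⟩ := hconj h hh
      rw [hq]
      exact h1 q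
    · rintro ⟨h1, h2⟩
      exact ⟨fun q => h1 _ (Quotient.out q : H).2, h2⟩
  refine ⟨N, ?_, ?_, ?_⟩
  · intro x hx
    have h1 := ((hN1 x).1 hx).1 1 (one_mem H)
    rwa [map_one, one_smul] at h1
  · intro hN
    rw [hN, Subgroup.relIndex_bot_left] at hNle
    omega
  · intro h hh
    ext x
    rw [conj_smul_mem, hN1, hN1]
    constructor
    · rintro ⟨h1, h2⟩
      refine ⟨fun k hk => ?_, ?_⟩
      · have h3 := h1 (h⁻¹ * k) (H.mul_mem (H.inv_mem hh) hk)
        rw [conj_smul_mem] at h3 ⊢
        have e : (h⁻¹ * k)⁻¹ * (h⁻¹ * x * h) * (h⁻¹ * k) = k⁻¹ * x * k := by group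
        rwa [e] at h3
      · rw [← hinv h hh, conj_smul_mem]
        exact h2
    · rintro ⟨h1, h2⟩
      refine ⟨fun k hk => ?_, ?_⟩
      · have h3 := h1 (h * k) (H.mul_mem hh hk)
        rw [conj_smul_mem] at h3 ⊢
        have e : k⁻¹ * (h⁻¹ * x * h) * k = (h * k)⁻¹ * x * (h * k) := by group
        rwa [e]
      · rw [← hinv h hh, conj_smul_mem] at h2
        exact h2

/-- **Exponent version.** -/
theorem pow_eq_one {H : Subgroup G} (hmax : IsCoatom H) (hcore : H.normalCore = ⊥) {t : G} (ht : t ∉ H) {d : ℕ}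
    (hd : (MulAut.conj t • H).relIndex H ≤ d) (S : Subgroup G) [S.Normal] {E : Subgroup G} (hEH : E ≤ H)
    (hES : E ≤ S) (hinv : Inv H E) (hcomm : ∀ x ∈ E, ∀ y ∈ E, x * y = y * x)
    {b : ℕ} (hb : (Subgroup.centralizer (E : Set G)).relIndex (H ⊓ S) ≤ b) :
    ∀ x ∈ E, x ^ (d * b).factorial = 1 := by
  by_contra hne
  push Not at hne
  obtain ⟨x₀, hx₀, hx₀'⟩ := hne
  refine push hmax hcore ht hd S hEH hES hb ?_
  intro F hFE hFi
  set n := (d * b).factorial with hn
  have hpow : ∀ x ∈ E, ∀ y ∈ E, (x * y) ^ n = x ^ n * y ^ n := fun x hx y hy =>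
    (show Commute x y from hcomm x hx y hy).mul_pow n
  let N : Subgroup G :=
    { carrier := {y | ∃ x ∈ E, x ^ n = y}
      mul_mem' := by
        rintro _ _ ⟨x, hx, rfl⟩ ⟨y, hy, rfl⟩
        exact ⟨x * y, mul_mem hx hy, hpow x hx y hy⟩
      one_mem' := ⟨1, one_mem _, one_pow _⟩
      inv_mem' := by
        rintro _ ⟨x, hx, rfl⟩
        exact ⟨x⁻¹, inv_mem hx, inv_pow x n⟩ }
  refine ⟨N, ?_, ?_, ?_⟩
  · rintro _ ⟨x, hx, rfl⟩
    -- `F` is normal in `E`
    have hnorm : (F.subgroupOf E).Normal := ⟨by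
      rintro ⟨y, hy⟩ hyF ⟨g, hg⟩
      rw [Subgroup.mem_subgroupOf] at hyF ⊢
      change y ∈ F at hyF
      change g * y * g⁻¹ ∈ F
      rw [hcomm g hg y hy, mul_assoc, mul_inv_cancel, mul_one]
      exact hyF⟩
    have h1 : (⟨x, hx⟩ : E) ^ (F.subgroupOf E).index ∈ F.subgroupOf E :=
      Subgroup.pow_index_mem (F.subgroupOf E) _
    have h2 : (F.subgroupOf E).index ∣ n := by
      rw [hn]
      exact Nat.dvd_factorial (relIndex_pos F E) hFi
    obtain ⟨k, hk⟩ := h2
    have h3 : x ^ (F.subgroupOf E).index ∈ F := h1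
    rw [hk, pow_mul]
    exact F.pow_mem h3 k
  · intro h
    have : x₀ ^ n ∈ N := ⟨x₀, hx₀, rfl⟩
    rw [h, Subgroup.mem_bot] at this
    exact hx₀' this
  · intro h hh
    ext y
    rw [conj_smul_mem]
    constructor
    · rintro ⟨x, hx, he⟩
      refine ⟨h * x * h⁻¹, ?_, ?_⟩
      · rw [← hinv h hh, conj_smul_mem]
        have e : h⁻¹ * (h * x * h⁻¹) * h = x := by group
        rwa [e]
      · rw [conj_pow, he]
        group
    · rintro ⟨x, hx, rfl⟩
      refine ⟨h⁻¹ * x * h, ?_, ?_⟩
      · rw [← hinv h hh, conj_smul_mem] at hx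
        exact hx
      · have := conj_pow (i := n) (a := h⁻¹) (b := x)
        rw [inv_inv] at this
        exact this

/-- **Cyclic version.** A cyclic normal subgroup `E` of `H` inside a normal subgroup `M` of `G` with
`[M, M] ∩ E = 1` has order at most `d`. -/
theorem card_le_of_cyclic {H : Subgroup G} (hmax : IsCoatom H) (hcore : H.normalCore = ⊥) {t : G} (ht : t ∉ H)
    {d : ℕ} (hd : (MulAut.conj t • H).relIndex H ≤ d) (M : Subgroup G) [M.Normal] {E : Subgroup G} (hEH : E ≤ H)
    (hEM : E ≤ M) (hinv : Inv H E) (hcyc : IsCyclic E) (hM : ∀ x ∈ M, ∀ y ∈ E, x * y * x⁻¹ * y⁻¹ ∈ E → x * y = y * x) :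
    Nat.card E ≤ d := by
  by_contra hlt
  push Not at hlt
  refine push hmax hcore ht hd M hEH hEM (b := 1) ?_ ?_
  · have h1 : H ⊓ M ≤ Subgroup.centralizer (E : Set G) := by
      intro x hx
      rw [Subgroup.mem_inf] at hx
      rw [Subgroup.mem_centralizer_iff]
      intro y hy
      refine (hM x hx.2 y hy ?_).symm
      refine E.mul_mem ?_ (E.inv_mem hy)
      rw [← hinv x hx.1, conj_smul_mem]
      have e : x⁻¹ * (x * y * x⁻¹) * x = y := by group
      rwa [e]
    rw [Subgroup.relIndex_eq_one.2 h1]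
  · intro F hFE hFi
    rw [mul_one] at hFi
    refine ⟨F, le_rfl, ?_, ?_⟩
    · rintro rfl
      rw [Subgroup.relIndex_bot_left] at hFi
      omega
    · intro h hh
      have h1 : ∀ x ∈ E, h * x * h⁻¹ ∈ E := by
        intro x hx
        rw [← hinv h hh, conj_smul_mem]
        have e : h⁻¹ * (h * x * h⁻¹) * h = x := by group
        rwa [e]
      let σ : E →* E :=
        { toFun := fun x => ⟨h * x * h⁻¹, h1 x x.2⟩
          map_one' := by
            apply Subtype.ext
            change h * 1 * h⁻¹ = 1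
            group
          map_mul' := fun x y => by
            apply Subtype.ext
            change h * (x * y) * h⁻¹ = (h * x * h⁻¹) * (h * y * h⁻¹)
            group }
      obtain ⟨m, hm⟩ := MonoidHom.map_cyclic σ
      have h2 : MulAut.conj h • F ≤ F := by
        intro y hy
        rw [conj_smul_mem] at hy
        have h3 : h * (h⁻¹ * y * h) * h⁻¹ = (h⁻¹ * y * h) ^ m := by
          have := congrArg Subtype.val (hm ⟨h⁻¹ * y * h, hFE hy⟩)
          exact this
        have e : h * (h⁻¹ * y * h) * h⁻¹ = y := by group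
        rw [e] at h3
        rw [h3]
        exact F.zpow_mem hy m
      exact Subgroup.eq_of_le_of_card_ge h2 (card_conj h F).ge

end Cfsg.Agent.H717.Push
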