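import Mathlib

/-!
# Large `r`-subgroups in centralizers of small subgroups of `A_n` (helper717, for S3386)
-/

set_option autoImplicit false

namespace Cfsg.Agent.H717.Sims

/-- A subgroup of bounded order of a permutation group of large degree has many orbits with the same stabilizer. -/
theorem exists_reps (K L : ℕ) [NeZero L] (n : ℕ) (hn : 2 ^ K * (K * L) < n) (Z : Subgroup (Equiv.Perm (Fin n)))
    (hZ : Nat.card Z ≤ K) :
    ∃ (H : Subgroup Z) (x : ZMod L → Fin n), (∀ i, MulAction.stabilizer Z (x i) = H) ∧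
      ∀ i j, (∃ z : Z, z • x i = x j) → i = j := by
  classical
  have : Fintype Z := Fintype.ofFinite _
  have : Fintype (Subgroup Z) := Fintype.ofFinite _
  have hc : Fintype.card (Subgroup Z) ≤ 2 ^ K := by
    calc Fintype.card (Subgroup Z) ≤ Fintype.card (Set Z) :=
          Fintype.card_le_of_injective (fun H : Subgroup Z => (H : Set Z)) SetLike.coe_injective
      _ = 2 ^ Fintype.card Z := Fintype.card_set
      _ ≤ 2 ^ K := Nat.pow_le_pow_right (by norm_num) (by rwa [← Nat.card_eq_fintype_card])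
  obtain ⟨H, hH⟩ := Fintype.exists_lt_card_fiber_of_mul_lt_card (fun x : Fin n => MulAction.stabilizer Z x)
    (n := K * L) (by
      rw [Fintype.card_fin]
      exact lt_of_le_of_lt (Nat.mul_le_mul_right _ hc) hn)
  set F : Finset (Fin n) := Finset.univ.filter fun x => MulAction.stabilizer Z x = H with hF
  let q : Fin n → MulAction.orbitRel.Quotient Z (Fin n) := fun x => Quotient.mk _ x
  have hq : ∀ x y, q x = q y ↔ ∃ z : Z, z • y = x := by
    intro x y
    constructor
    · intro h
      obtain ⟨z, hz⟩ := MulAction.orbitRel_apply.1 (Quotient.exact h)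
      exact ⟨z, hz⟩
    · rintro ⟨z, hz⟩
      apply Quotient.sound
      change (MulAction.orbitRel Z (Fin n)) x y
      rw [MulAction.orbitRel_apply]
      exact ⟨z, hz⟩
  have hfib : F.card ≤ K * (F.image q).card := by
    apply Finset.card_le_mul_card_image
    intro a ha
    obtain ⟨x0, hx0, rfl⟩ := Finset.mem_image.1 ha
    calc (F.filter fun x => q x = q x0).card ≤ (Finset.univ.image fun z : Z => z • x0).card := by
          apply Finset.card_le_card
          intro x hx
          obtain ⟨z, hz⟩ := (hq x x0).1 (Finset.mem_filter.1 hx).2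
          exact Finset.mem_image.2 ⟨z, Finset.mem_univ _, hz⟩
      _ ≤ Fintype.card Z := Finset.card_image_le
      _ ≤ K := by rwa [← Nat.card_eq_fintype_card]
  have hL : L ≤ (F.image q).card := by
    have h1 : K * L < K * (F.image q).card := lt_of_lt_of_le hH hfib
    exact le_of_lt (Nat.lt_of_mul_lt_mul_left h1)
  have hcardL : Fintype.card (ZMod L) ≤ Fintype.card (F.image q) := by
    rw [ZMod.card, Fintype.card_coe]; exact hL
  obtain ⟨e⟩ := Function.Embedding.nonempty_of_card_le hcardL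
  have hex : ∀ i : ZMod L, ∃ x : Fin n, x ∈ F ∧ q x = (e i).1 := fun i => Finset.mem_image.1 (e i).2
  choose x hx hx' using hex
  refine ⟨H, x, fun i => (Finset.mem_filter.1 (hx i)).2, ?_⟩
  intro i j hij
  have : q (x j) = q (x i) := (hq _ _).2 hij
  rw [hx', hx'] at this
  exact (e.injective (Subtype.ext this)).symm

/-- A subgroup of bounded order of `S_n`, `n` large, is centralized by a permutation of given order `L`. -/
theorem exists_perm (K L : ℕ) [NeZero L] (n : ℕ) (hn : 2 ^ K * (K * L) < n) (Z : Subgroup (Equiv.Perm (Fin n)))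
    (hZ : Nat.card Z ≤ K) : ∃ π : Equiv.Perm (Fin n), orderOf π = L ∧ ∀ z ∈ Z, z * π = π * z := by
  classical
  obtain ⟨H, x, hH, hx⟩ := exists_reps K L n hn Z hZ
  -- the embedding
  have hstab : ∀ i (z w : Z), z • x i = w • x i ↔ (QuotientGroup.mk z : Z ⧸ H) = QuotientGroup.mk w := by
    intro i z w
    rw [QuotientGroup.eq, ← hH i, MulAction.mem_stabilizer_iff, mul_smul, inv_smul_eq_iff, eq_comm]
  let f : (Z ⧸ H) × ZMod L → Fin n := fun w =>
    Quotient.liftOn' w.1 (fun z => z • x w.2) (fun a b hab => by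
      have : (QuotientGroup.mk a : Z ⧸ H) = QuotientGroup.mk b := Quotient.sound' hab
      exact (hstab w.2 a b).2 this)
  have hf : ∀ (z : Z) (i : ZMod L), f (QuotientGroup.mk z, i) = z • x i := fun z i => rfl
  have hinj : Function.Injective f := by
    rintro ⟨a, i⟩ ⟨b, j⟩ h
    induction a using QuotientGroup.induction_on with | _ a => ?_
    induction b using QuotientGroup.induction_on with | _ b => ?_
    rw [hf, hf] at h
    have hij : i = j := by
      apply hx i j
      exact ⟨b⁻¹ * a, by rw [mul_smul, h, inv_smul_smul]⟩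
    subst hij
    rw [(hstab i a b).1 h]
  let ι : (Z ⧸ H) × ZMod L ↪ Fin n := ⟨f, hinj⟩
  have hι : ∀ (z : Z) (i : ZMod L), ι (QuotientGroup.mk z, i) = z • x i := fun z i => rfl
  have hsm : ∀ (z : Z) (w : (Z ⧸ H) × ZMod L), z • ι w = ι (z • w.1, w.2) := by
    rintro z ⟨a, i⟩
    induction a using QuotientGroup.induction_on with | _ a => ?_
    rw [hι]
    change z • a • x i = ι (QuotientGroup.mk (z * a), i)
    rw [hι, mul_smul]
  let σ : Equiv.Perm ((Z ⧸ H) × ZMod L) := Equiv.prodCongr (Equiv.refl _) (Equiv.addRight 1)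
  have hσ : ∀ w, σ w = (w.1, w.2 + 1) := fun w => rfl
  have hσk : ∀ (k : ℕ) w, (σ ^ k) w = (w.1, w.2 + (k : ZMod L)) := by
    intro k
    induction k with
    | zero => intro w; simp
    | succ k ih =>
      intro w
      rw [pow_succ', Equiv.Perm.mul_apply, ih, hσ]
      simp [add_assoc]
  have hσo : orderOf σ = L := by
    rw [orderOf_eq_iff (Nat.pos_of_ne_zero (NeZero.ne L))]
    refine ⟨?_, ?_⟩
    · ext w
      · rw [hσk]; simp
      · rw [hσk]; simp
    · intro m hm hm0 h
      have h1 := congrArg (fun τ : Equiv.Perm ((Z ⧸ H) × ZMod L) => (τ (QuotientGroup.mk 1, 0)).2) h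
      simp only [hσk, zero_add, Equiv.Perm.coe_one, id_eq] at h1
      rw [ZMod.natCast_eq_zero_iff] at h1
      exact absurd (Nat.le_of_dvd hm0 h1) (not_le.2 hm)
  refine ⟨σ.viaEmbedding ι, ?_, ?_⟩
  · have h1 := orderOf_injective (Equiv.Perm.viaEmbeddingHom ι) (Equiv.Perm.viaEmbeddingHom_injective ι) σ
    rw [Equiv.Perm.viaEmbeddingHom_apply] at h1
    rw [h1, hσo]
  · intro z hz
    ext y : 1
    rw [Equiv.Perm.mul_apply, Equiv.Perm.mul_apply]
    have hzy : ∀ y : Fin n, z y = (⟨z, hz⟩ : Z) • y := fun y => rfl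
    by_cases hy : y ∈ Set.range ι
    · obtain ⟨w, rfl⟩ := hy
      rw [Equiv.Perm.viaEmbedding_apply, hzy, hzy, hsm, hsm, Equiv.Perm.viaEmbedding_apply]
      rfl
    · rw [Equiv.Perm.viaEmbedding_apply_of_notMem _ _ _ hy]
      have hy' : z y ∉ Set.range ι := by
        rintro ⟨w, hw⟩
        apply hy
        refine ⟨((⟨z, hz⟩ : Z)⁻¹ • w.1, w.2), ?_⟩
        rw [← hsm, hw, hzy, inv_smul_smul]
      rw [Equiv.Perm.viaEmbedding_apply_of_notMem _ _ _ hy']

/-- **Alternating case.** -/
theorem large_alt (c K p : ℕ) (hp : p.Prime) : ∃ n₀ : ℕ, ∀ n : ℕ, n₀ ≤ n →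
    ∀ Z : Subgroup (alternatingGroup (Fin n)), Nat.card Z ≤ K →
      ∃ (r : ℕ) (E : Subgroup (alternatingGroup (Fin n))), r.Prime ∧ r ≠ p ∧
        E ≤ Subgroup.centralizer (Z : Set (alternatingGroup (Fin n))) ∧ IsPGroup r E ∧ c < Nat.card E := by
  classical
  obtain ⟨r, hr, hrp, hr3⟩ : ∃ r : ℕ, r.Prime ∧ r ≠ p ∧ Odd r := by
    by_cases h : p = 3
    · exact ⟨5, by norm_num, by omega, by decide⟩
    · exact ⟨3, by norm_num, fun h' => h h'.symm, by decide⟩
  have hrpos : 0 < r := hr.pos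
  have : NeZero (r ^ (c + 1)) := ⟨(pow_pos hrpos _).ne'⟩
  refine ⟨2 ^ K * (K * r ^ (c + 1)) + 1, fun n hn Z hZ => ?_⟩
  let A := alternatingGroup (Fin n)
  let Z' : Subgroup (Equiv.Perm (Fin n)) := Z.map A.subtype
  have hZ' : Nat.card Z' ≤ K := by
    have : Nat.card Z' = Nat.card Z :=
      (Nat.card_congr (Z.equivMapOfInjective A.subtype (Subgroup.subtype_injective A)).toEquiv).symm
    omega
  obtain ⟨π, hπ, hcomm⟩ := exists_perm K (r ^ (c + 1)) n (by omega) Z' hZ'
  have hsign : π ∈ A := by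
    rw [Equiv.Perm.mem_alternatingGroup]
    have h1 : Equiv.Perm.sign π ^ (r ^ (c + 1)) = 1 := by
      rw [← map_pow, ← hπ, pow_orderOf_eq_one, map_one]
    rcases Int.units_eq_one_or (Equiv.Perm.sign π) with h | h
    · exact h
    · rw [h, (hr3.pow).neg_one_pow] at h1
      exact absurd h1 (by decide)
  refine ⟨r, Subgroup.zpowers (⟨π, hsign⟩ : A), hr, hrp, ?_, ?_, ?_⟩
  · rw [Subgroup.zpowers_le, Subgroup.mem_centralizer_iff]
    intro z hz
    apply Subtype.ext
    exact hcomm z.1 (Subgroup.mem_map_of_mem A.subtype hz)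
  · have : Fact r.Prime := ⟨hr⟩
    rw [IsPGroup.iff_card]
    exact ⟨c + 1, by rw [Nat.card_zpowers, Subgroup.orderOf_mk, hπ]⟩
  · rw [Nat.card_zpowers, Subgroup.orderOf_mk, hπ]
    calc c < 2 ^ c := Nat.lt_two_pow_self
      _ ≤ r ^ c := Nat.pow_le_pow_left hr.two_le _
      _ ≤ r ^ (c + 1) := Nat.pow_le_pow_right hrpos (Nat.le_succ _)

end Cfsg.Agent.H717.Sims
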